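import Cfsg.Agent.RankOne.Stein

set_option autoImplicit false

/-!
# The homomorphism SL₂(F) → G given by Steinberg data (F finite)
-/

namespace Cfsg.Agent.RankOne

open Cfsg

/-- the standard Weyl element -/
def wm (F : Type*) [Field F] : Matrix.SpecialLinearGroup (Fin 2) F := ⟨!![0, 1; -1, 0], by simp [Matrix.det_fin_two]⟩

theorem coe_wm (F : Type*) [Field F] : (wm F : Matrix (Fin 2) (Fin 2) F) = !![0, 1; -1, 0] := rfl

theorem closure_up_wm (F : Type*) [Field F] :
    Subgroup.closure (Set.range (up : F → Matrix.SpecialLinearGroup (Fin 2) F) ∪ {wm F}) = ⊤ := by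
  rw [eq_top_iff, ← lower_sup_upper]
  have hup : ∀ t : F, up t ∈ Subgroup.closure (Set.range (up : F → Matrix.SpecialLinearGroup (Fin 2) F) ∪ {wm F}) :=
    fun t => Subgroup.subset_closure (Or.inl ⟨t, rfl⟩)
  have hw : wm F ∈ Subgroup.closure (Set.range (up : F → Matrix.SpecialLinearGroup (Fin 2) F) ∪ {wm F}) :=
    Subgroup.subset_closure (Or.inr rfl)
  apply sup_le
  · intro g hg
    obtain ⟨t, rfl⟩ := mem_lower.mp hg
    have : lo t = wm F * up (-t) * (wm F)⁻¹ := by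
      rw [eq_mul_inv_iff_mul_eq]
      apply sl_ext <;> simp [coe_lo, coe_up, coe_wm, Matrix.mul_apply, Fin.sum_univ_two]
    rw [this]
    exact Subgroup.mul_mem _ (Subgroup.mul_mem _ hw (hup _)) (Subgroup.inv_mem _ hw)
  · intro g hg
    obtain ⟨t, rfl⟩ := mem_upper.mp hg
    exact hup t

theorem up_mul_00 {F : Type*} [Field F] (s : F) (g : Matrix.SpecialLinearGroup (Fin 2) F) :
    ((up s * g : Matrix.SpecialLinearGroup (Fin 2) F) : Matrix (Fin 2) (Fin 2) F) 0 0 = (g : Matrix (Fin 2) (Fin 2) F) 0 0 + s * (g : Matrix (Fin 2) (Fin 2) F) 1 0 := by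
  simp [coe_up, Matrix.mul_apply, Fin.sum_univ_two]
theorem up_mul_01 {F : Type*} [Field F] (s : F) (g : Matrix.SpecialLinearGroup (Fin 2) F) :
    ((up s * g : Matrix.SpecialLinearGroup (Fin 2) F) : Matrix (Fin 2) (Fin 2) F) 0 1 = (g : Matrix (Fin 2) (Fin 2) F) 0 1 + s * (g : Matrix (Fin 2) (Fin 2) F) 1 1 := by
  simp [coe_up, Matrix.mul_apply, Fin.sum_univ_two]
theorem up_mul_10 {F : Type*} [Field F] (s : F) (g : Matrix.SpecialLinearGroup (Fin 2) F) :
    ((up s * g : Matrix.SpecialLinearGroup (Fin 2) F) : Matrix (Fin 2) (Fin 2) F) 1 0 = (g : Matrix (Fin 2) (Fin 2) F) 1 0 := by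
  simp [coe_up, Matrix.mul_apply, Fin.sum_univ_two]
theorem up_mul_11 {F : Type*} [Field F] (s : F) (g : Matrix.SpecialLinearGroup (Fin 2) F) :
    ((up s * g : Matrix.SpecialLinearGroup (Fin 2) F) : Matrix (Fin 2) (Fin 2) F) 1 1 = (g : Matrix (Fin 2) (Fin 2) F) 1 1 := by
  simp [coe_up, Matrix.mul_apply, Fin.sum_univ_two]
theorem wm_mul_00 {F : Type*} [Field F] (g : Matrix.SpecialLinearGroup (Fin 2) F) :
    ((wm F * g : Matrix.SpecialLinearGroup (Fin 2) F) : Matrix (Fin 2) (Fin 2) F) 0 0 = (g : Matrix (Fin 2) (Fin 2) F) 1 0 := by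
  simp [coe_wm, Matrix.mul_apply, Fin.sum_univ_two]
theorem wm_mul_01 {F : Type*} [Field F] (g : Matrix.SpecialLinearGroup (Fin 2) F) :
    ((wm F * g : Matrix.SpecialLinearGroup (Fin 2) F) : Matrix (Fin 2) (Fin 2) F) 0 1 = (g : Matrix (Fin 2) (Fin 2) F) 1 1 := by
  simp [coe_wm, Matrix.mul_apply, Fin.sum_univ_two]
theorem wm_mul_10 {F : Type*} [Field F] (g : Matrix.SpecialLinearGroup (Fin 2) F) :
    ((wm F * g : Matrix.SpecialLinearGroup (Fin 2) F) : Matrix (Fin 2) (Fin 2) F) 1 0 = -(g : Matrix (Fin 2) (Fin 2) F) 0 0 := by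
  simp [coe_wm, Matrix.mul_apply, Fin.sum_univ_two]
theorem wm_mul_11 {F : Type*} [Field F] (g : Matrix.SpecialLinearGroup (Fin 2) F) :
    ((wm F * g : Matrix.SpecialLinearGroup (Fin 2) F) : Matrix (Fin 2) (Fin 2) F) 1 1 = -(g : Matrix (Fin 2) (Fin 2) F) 0 1 := by
  simp [coe_wm, Matrix.mul_apply, Fin.sum_univ_two]

theorem sl_det {F : Type*} [Field F] (g : Matrix.SpecialLinearGroup (Fin 2) F) :
    (g : Matrix (Fin 2) (Fin 2) F) 0 0 * (g : Matrix (Fin 2) (Fin 2) F) 1 1 -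
      (g : Matrix (Fin 2) (Fin 2) F) 0 1 * (g : Matrix (Fin 2) (Fin 2) F) 1 0 = 1 := by
  have := g.det_coe
  rwa [Matrix.det_fin_two] at this

namespace SteinData

variable {F G : Type*} [Field F] [Group G] (D : SteinData F G)

open Classical in
/-- the map SL₂(F) → G -/
noncomputable def phiFun (g : Matrix.SpecialLinearGroup (Fin 2) F) : G :=
  if (g : Matrix (Fin 2) (Fin 2) F) 1 0 = 0 then
    D.x ((g : Matrix (Fin 2) (Fin 2) F) 0 0 * (g : Matrix (Fin 2) (Fin 2) F) 0 1) * D.h ((g : Matrix (Fin 2) (Fin 2) F) 0 0)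
  else
    D.x ((g : Matrix (Fin 2) (Fin 2) F) 0 0 / (g : Matrix (Fin 2) (Fin 2) F) 1 0) *
      D.w (-((g : Matrix (Fin 2) (Fin 2) F) 1 0)⁻¹) * D.x ((g : Matrix (Fin 2) (Fin 2) F) 1 1 / (g : Matrix (Fin 2) (Fin 2) F) 1 0)

theorem phi_of_zero {g : Matrix.SpecialLinearGroup (Fin 2) F} (h : (g : Matrix (Fin 2) (Fin 2) F) 1 0 = 0) :
    D.phiFun g = D.x ((g : Matrix (Fin 2) (Fin 2) F) 0 0 * (g : Matrix (Fin 2) (Fin 2) F) 0 1) *
      D.h ((g : Matrix (Fin 2) (Fin 2) F) 0 0) := if_pos h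

theorem phi_of_ne {g : Matrix.SpecialLinearGroup (Fin 2) F} (h : (g : Matrix (Fin 2) (Fin 2) F) 1 0 ≠ 0) :
    D.phiFun g = D.x ((g : Matrix (Fin 2) (Fin 2) F) 0 0 / (g : Matrix (Fin 2) (Fin 2) F) 1 0) *
      D.w (-((g : Matrix (Fin 2) (Fin 2) F) 1 0)⁻¹) * D.x ((g : Matrix (Fin 2) (Fin 2) F) 1 1 / (g : Matrix (Fin 2) (Fin 2) F) 1 0) :=
  if_neg h

theorem phi_up_mul (s : F) (g : Matrix.SpecialLinearGroup (Fin 2) F) : D.phiFun (up s * g) = D.x s * D.phiFun g := by
  have hdet := sl_det g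
  by_cases hc : (g : Matrix (Fin 2) (Fin 2) F) 1 0 = 0
  · rw [D.phi_of_zero hc, D.phi_of_zero (by rw [up_mul_10]; exact hc), up_mul_00, up_mul_01, ← mul_assoc, ← D.x_add, hc,
      mul_zero, add_zero]
    rw [hc, mul_zero, sub_zero] at hdet
    congr 2
    linear_combination s * hdet
  · rw [D.phi_of_ne hc, D.phi_of_ne (by rw [up_mul_10]; exact hc), up_mul_00, up_mul_10, up_mul_11, ← mul_assoc,
      ← mul_assoc, ← D.x_add]
    congr 3
    field_simp; ring

theorem phi_wm_mul [Finite F] (g : Matrix.SpecialLinearGroup (Fin 2) F) : D.phiFun (wm F * g) = D.w 1 * D.phiFun g := by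
  have hdet := sl_det g
  generalize ha : (g : Matrix (Fin 2) (Fin 2) F) 0 0 = a at hdet
  generalize hb : (g : Matrix (Fin 2) (Fin 2) F) 0 1 = b at hdet
  generalize hc : (g : Matrix (Fin 2) (Fin 2) F) 1 0 = c at hdet
  generalize hd : (g : Matrix (Fin 2) (Fin 2) F) 1 1 = d at hdet
  by_cases hc0 : c = 0
  · subst hc0
    have ha0 : a ≠ 0 := by rintro rfl; simp at hdet
    rw [D.phi_of_zero hc, D.phi_of_ne (g := wm F * g) (by rw [wm_mul_10, ha]; exact neg_ne_zero.mpr ha0), wm_mul_00, wm_mul_10, wm_mul_11,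
      ha, hb, hc, zero_div, D.x_zero, one_mul]
    have e1 : -(-a)⁻¹ = a⁻¹ := by rw [inv_neg, neg_neg]
    have e2 : -b / -a = b / a := by rw [neg_div_neg_eq]
    rw [e1, e2, D.xh ha0, ← mul_assoc]
    have h4 : D.w 1 * D.h a = D.w a⁻¹ := by
      rw [D.w_eq_h a⁻¹, D.h_w1 (inv_ne_zero ha0), inv_inv]
    rw [h4]
    congr 2; field_simp
  · by_cases ha0 : a = 0
    · subst ha0
      rw [D.phi_of_ne (g := g) (by rw [hc]; exact hc0), D.phi_of_zero (g := wm F * g) (by rw [wm_mul_10, ha, neg_zero]), wm_mul_00, wm_mul_01,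
        ha, hc, hd, zero_div, D.x_zero, one_mul, ← mul_assoc]
      have h1 : D.w 1 * D.w (-c⁻¹) = D.h c := by
        have h2 : D.h c⁻¹ = D.w c⁻¹ * (D.w 1)⁻¹ := rfl
        have h3 := D.h_inv (r := c⁻¹) (inv_ne_zero hc0)
        rw [inv_inv] at h3
        rw [h3, h2, mul_inv_rev, inv_inv, D.w_neg]
      rw [h1, D.hx hc0]
      congr 2; field_simp
    · rw [D.phi_of_ne (g := g) (by rw [hc]; exact hc0), D.phi_of_ne (g := wm F * g) (by rw [wm_mul_10, ha]; exact neg_ne_zero.mpr ha0), wm_mul_00,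
        wm_mul_10, wm_mul_11, ha, hb, hc, hd]
      have hac : a / c ≠ 0 := div_ne_zero ha0 hc0
      have hci : -c⁻¹ ≠ 0 := neg_ne_zero.mpr (inv_ne_zero hc0)
      have e1 : -(-a)⁻¹ = a⁻¹ := by rw [inv_neg, neg_neg]
      have e2 : -b / -a = b / a := by rw [neg_div_neg_eq]
      have e3 : c / -a = -(c / a) := by rw [div_neg]
      rw [e1, e2, e3]
      have h1 : D.x (a / c) = D.y (c / a) * D.w (a / c) * D.y (c / a) := by
        rw [D.x_eq hac, inv_div]
      have h2 : D.w 1 * D.y (c / a) = D.x (-(c / a)) * D.w 1 := by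
        rw [D.wy one_ne_zero]; congr 2; ring
      have h3 : D.y (c / a) * D.w (-c⁻¹) = D.w (-c⁻¹) * D.x (-(1 / (a * c))) := by
        rw [D.yw hci]; congr 2; field_simp
      have h4 : D.w 1 * D.w (a / c) * D.w (-c⁻¹) = D.w a⁻¹ := by
        rw [D.www one_ne_zero hac hci]; congr 1; field_simp
      have h5 : D.x (-(1 / (a * c))) * D.x (d / c) = D.x (b / a) := by
        rw [← D.x_add]; congr 1; field_simp; linear_combination hdet
      symm
      calc D.w 1 * (D.x (a / c) * D.w (-c⁻¹) * D.x (d / c))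
          = (D.w 1 * D.y (c / a)) * D.w (a / c) * (D.y (c / a) * D.w (-c⁻¹)) * D.x (d / c) := by
            rw [h1]; simp only [mul_assoc]
        _ = D.x (-(c / a)) * (D.w 1 * D.w (a / c) * D.w (-c⁻¹)) * (D.x (-(1 / (a * c))) * D.x (d / c)) := by
            rw [h2, h3]; simp only [mul_assoc]
        _ = _ := by rw [h4, h5]

theorem phi_one : D.phiFun 1 = 1 := by
  rw [D.phi_of_zero (by simp)]
  simp [D.x_zero, D.h_one]

theorem phi_mul [Finite F] (g g' : Matrix.SpecialLinearGroup (Fin 2) F) : D.phiFun (g * g') = D.phiFun g * D.phiFun g' := by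
  have h1 : g ∈ Subgroup.closure (Set.range (up : F → Matrix.SpecialLinearGroup (Fin 2) F) ∪ {wm F}) := by
    rw [closure_up_wm]; trivial
  revert g'
  induction h1 using Subgroup.closure_induction with
  | mem g hg =>
    intro g'
    rcases hg with ⟨s, rfl⟩ | hg
    · rw [D.phi_up_mul]
      have := D.phi_up_mul s 1
      rw [mul_one, D.phi_one, mul_one] at this
      rw [this]
    · rw [Set.mem_singleton_iff] at hg
      subst hg
      rw [D.phi_wm_mul]
      have := D.phi_wm_mul 1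
      rw [mul_one, D.phi_one, mul_one] at this
      rw [this]
  | one => intro g'; rw [one_mul, D.phi_one, one_mul]
  | mul a b _ _ ha hb => intro g'; rw [mul_assoc, ha, hb, ha b, mul_assoc]
  | inv a _ ha =>
    intro g'
    have h2 : ∀ g', D.phiFun (a⁻¹ * g') = (D.phiFun a)⁻¹ * D.phiFun g' := by
      intro g'
      rw [eq_inv_mul_iff_mul_eq, ← ha, mul_inv_cancel_left]
    have h3 := h2 1
    rw [mul_one, D.phi_one, mul_one] at h3
    rw [h2, h3]

/-- the homomorphism SL₂(F) → G -/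
noncomputable def phi [Finite F] : Matrix.SpecialLinearGroup (Fin 2) F →* G where
  toFun := D.phiFun
  map_one' := D.phi_one
  map_mul' := D.phi_mul

theorem phi_up [Finite F] (s : F) : D.phi (up s) = D.x s := by
  have := D.phi_up_mul s 1
  rw [mul_one, D.phi_one, mul_one] at this
  exact this

theorem phi_wm [Finite F] : D.phi (wm F) = D.w 1 := by
  have := D.phi_wm_mul 1
  rw [mul_one, D.phi_one, mul_one] at this
  exact this

theorem phi_lo [Finite F] (t : F) : D.phi (lo t) = D.y t := by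
  have : lo t = wm F * up (-t) * (wm F)⁻¹ := by
    rw [eq_mul_inv_iff_mul_eq]
    apply sl_ext <;> simp [coe_lo, coe_up, coe_wm, Matrix.mul_apply, Fin.sum_univ_two]
  rw [this, map_mul, map_mul, map_inv, D.phi_up, D.phi_wm, D.wx one_ne_zero, mul_inv_cancel_right]
  congr 1; ring

theorem range_phi [Finite F] : D.phi.range = D.K := by
  have htop : (⊤ : Subgroup (Matrix.SpecialLinearGroup (Fin 2) F)) =
      Subgroup.closure (Set.range (up : F → Matrix.SpecialLinearGroup (Fin 2) F) ∪ Set.range (lo : F → Matrix.SpecialLinearGroup (Fin 2) F)) := by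
    symm
    rw [eq_top_iff, ← lower_sup_upper]
    apply sup_le
    · intro g hg
      obtain ⟨t, rfl⟩ := mem_lower.mp hg
      exact Subgroup.subset_closure (Or.inr ⟨t, rfl⟩)
    · intro g hg
      obtain ⟨t, rfl⟩ := mem_upper.mp hg
      exact Subgroup.subset_closure (Or.inl ⟨t, rfl⟩)
  rw [MonoidHom.range_eq_map, htop, MonoidHom.map_closure, Set.image_union, ← Set.range_comp, ← Set.range_comp]
  unfold K
  congr 3
  · funext s; exact D.phi_up s
  · funext s; exact D.phi_lo s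

end SteinData

end Cfsg.Agent.RankOne
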